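import Cfsg.Agent.R2.T1.Inf.Desc
import Cfsg.Agent.R2.T1.Inf.Frame
import Cfsg.Agent.R2.H9.E6.Max
import Cfsg.Agent.R2.H9.E6.PslF
import Cfsg.Agent.H943.SL2Rel

/-!
# S5932: the situation and the boxes (helper32)

* `Sit p a b F K k` : `H` is a maximal subgroup of `E₇(p^b)` with `F*(H) = φ(PSL₂(K))`, `|K| = p^a ≥ 11`,
  `p^a ≠ 19, 25`, `a ≠ 7 b`; `ψ0` the lift of `SL₂(K)` to the simply connected group; `k` the algebraic closure;
* `Sit.M` : the preimage of `H`, inside `Gh k`; `Sit.ψ`, `Sit.σ` (Frobenius), `Sit.R`, `Sit.RL` : the modules;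
* `Box P` : the goal `17 ≤ p ∧ a = b` for the parameters with `P p a b`;
* `Sit.Ew`, `Sit.Tor` : a non-trivial cocharacter acting by scalars on the weight spaces of the torus of `SL₂(K)`;
* `core` : the assembly.
-/

set_option autoImplicit false

namespace Cfsg.Agent.E7P

open Cfsg Cfsg.Lie Module Matrix
open Cfsg.Agent.R2.T1
open Cfsg.Agent.R2.H9.E6 (MaxSimp pq)
open Cfsg.Agent.H943.E7V.Block (D1 rho)
open Cfsg.Agent.BpExc.TorAll (HAlg)
open Cfsg.Agent.H943.SL2Rel (u w h)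

universe u v

/-- **the situation** -/
structure Sit (p a b : ℕ) (F : Type u) (K : Type v) (k : Type u) [Field F] [Fintype F] [Field K] [Fintype K]
    [Field k] where
  H : Subgroup ↥(chevE7.group F)
  φ : ProjectiveSpecialLinearGroup (Fin 2) K →* ↥(chevE7.group F)
  ψ0 : SpecialLinearGroup (Fin 2) K →* Gh F
  f : F →+* k
  ι : K →+* k
  s : k →+* k
  max : MaxSimp H φ
  prime : p.Prime
  ha : 1 ≤ a
  hb : 1 ≤ b
  charF : CharP F p
  charK : CharP K p
  chark : CharP k p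
  cardF : Fintype.card F = p ^ b
  cardK : Fintype.card K = p ^ a
  lift : ∀ g, ad F (ψ0 g) = φ (pq g)
  eleven : 11 ≤ p ^ a
  ne19 : p ^ a ≠ 19
  ne25 : p ^ a ≠ 25
  ne7 : a ≠ 7 * b
  bound : ∃ d ∈ [1, 3, 4, 5, 6, 7, 9], a ∣ b * d
  closed : IsAlgClosed k
  alg : HAlg p k
  frob : ∀ t, s t = t ^ Nat.card F

namespace Sit

variable {p a b : ℕ} {F : Type u} {K : Type v} {k : Type u} [Field F] [Fintype F] [Field K] [Fintype K] [Field k]
  (S : Sit p a b F K k)

/-- the preimage of `H` in the simply connected group over `F` -/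
noncomputable def M0 : Subgroup (Gh F) := S.H.comap (ad F)

/-- the preimage of `H`, in the algebraic group -/
noncomputable def M : Subgroup (Gh k) := S.M0.map (emb S.f)

/-- `SL₂(K)` in the algebraic group -/
noncomputable def ψ : SpecialLinearGroup (Fin 2) K →* Gh k := (emb S.f).comp S.ψ0

/-- the Frobenius endomorphism -/
noncomputable def σ : Gh k →* Gh k := emb S.s

/-- the Frobenius map on vectors (of `V`, of the Lie algebra) -/
def sv {I : Type} (x : I → k) : I → k := fun i => S.s (x i)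

/-- the 56-dimensional module -/
noncomputable def R : Representation k (SpecialLinearGroup (Fin 2) K) (D1 → k) := MonoidHom.comp (V k) S.ψ

/-- the adjoint module -/
noncomputable def RL : Representation k (SpecialLinearGroup (Fin 2) K) (chevE7.Idx → k) := MonoidHom.comp (L k) S.ψ

/-- the vectors of weight `j` (modulo `p ^ a - 1`) for the torus of `SL₂(K)` -/
def Ew (j : ℤ) (x : D1 → k) : Prop := ∀ c : Kˣ, S.R (h c) x = ((Units.map (S.ι : K →* k) c ^ j : kˣ) : k) • x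

/-- **blueprint**: a non-trivial cocharacter which acts by scalars on the weight spaces of the torus of `SL₂(K)` -/
def Tor : Prop := ∃ (μ : kˣ →* Gh k) (n : ℤ → ℤ), (∃ z, μ z ≠ 1) ∧
  ∀ (j : ℤ) (x : D1 → k), S.Ew j x → ∀ z : kˣ, V k (μ z) x = ((z ^ n j : kˣ) : k) • x

end Sit

/-- the goal for the parameters with `P p a b` -/
def Box (P : ℕ → ℕ → ℕ → Prop) : Prop := ∀ (p a b : ℕ) (F : Type u) (K : Type v) (k : Type u) [Field F] [Fintype F]
  [Field K] [Fintype K] [Field k] (_ : Sit p a b F K k), P p a b → 17 ≤ p ∧ a = b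

/-- `p = 2` -/
def BoxTwo : Prop := Box.{u, v} fun p _ _ => p = 2

/-- `a = 1`, `p = 11, 13, 17, 23` -/
def BoxPrime : Prop := Box.{u, v} fun p a _ => a = 1 ∧ p ≤ 23

/-- `a = 1`, `p ≥ 29` -/
def BoxSat : Prop := Box.{u, v} fun p a _ => a = 1 ∧ 29 ≤ p

/-- the small fields, `p = 3` -/
def BoxSm3 : Prop := Box.{u, v} fun p a _ => p = 3 ∧ (a = 3 ∨ a = 4)

/-- the small fields, `p ≥ 5` -/
def BoxSm5 : Prop := Box.{u, v} fun p a _ => (p = 5 ∧ a = 3) ∨ (a = 2 ∧ (p = 7 ∨ p = 11 ∨ p = 13))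

/-- **BLUE**: the torus of `SL₂(K)` is a blueprint if `K` is large (Hadamard bound) -/
def BLUE : Prop := ∀ (p a b : ℕ) (F : Type u) (K : Type v) (k : Type u) [Field F] [Fintype F]
  [Field K] [Fintype K] [Field k] (S : Sit p a b F K k), p ≠ 2 → (p ^ a = 243 ∨ 257 < p ^ a) → S.Tor

/-- **TOR**: the blueprint case (`ALG` and `END`) -/
def TOR : Prop := ∀ (p a b : ℕ) (F : Type u) (K : Type v) (k : Type u) [Field F] [Fintype F]
  [Field K] [Fintype K] [Field k] (S : Sit p a b F K k), p ≠ 2 → S.Tor → 17 ≤ p ∧ a = b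

theorem cases_num {p a : ℕ} (hp : p.Prime) (ha : 1 ≤ a) (h11 : 11 ≤ p ^ a) (h25 : p ^ a ≠ 25) :
    p = 2 ∨ (a = 1 ∧ p ≤ 23) ∨ (a = 1 ∧ 29 ≤ p) ∨ (p = 3 ∧ (a = 3 ∨ a = 4)) ∨
      ((p = 5 ∧ a = 3) ∨ (a = 2 ∧ (p = 7 ∨ p = 11 ∨ p = 13))) ∨ (p ^ a = 243 ∨ 257 < p ^ a) := by
  by_cases h2 : p = 2
  · exact Or.inl h2
  right
  by_cases h1 : a = 1
  · by_cases h23 : p ≤ 23
    · exact Or.inl ⟨h1, h23⟩
    · refine Or.inr (Or.inl ⟨h1, ?_⟩)
      by_contra h29
      have h3 : p < 29 := by omega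
      have h4 : 23 < p := by omega
      interval_cases p <;> exact absurd hp (by norm_num)
  right; right
  have ha2 : 2 ≤ a := by omega
  by_cases h17 : 17 ≤ p
  · right; right; right
    calc 257 < 17 ^ 2 := by norm_num
      _ ≤ p ^ 2 := Nat.pow_le_pow_left h17 2
      _ ≤ p ^ a := Nat.pow_le_pow_right hp.pos ha2
  by_cases h6 : 6 ≤ a
  · right; right; right
    have h3 : 3 ≤ p := by have := hp.two_le; omega
    calc 257 < 3 ^ 6 := by norm_num
      _ ≤ p ^ 6 := Nat.pow_le_pow_left h3 6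
      _ ≤ p ^ a := Nat.pow_le_pow_right hp.pos h6
  have h3 : p < 17 := by omega
  have h5 : a < 6 := by omega
  interval_cases p <;> first
    | (exfalso; revert hp; decide)
    | (interval_cases a <;> simp_all)

/-- **the assembly** -/
theorem core (h2 : BoxTwo.{u, v}) (hP : BoxPrime.{u, v}) (hS : BoxSat.{u, v}) (h3 : BoxSm3.{u, v})
    (h5 : BoxSm5.{u, v}) (hB : BLUE.{u, v}) (hT : TOR.{u, v}) : Box.{u, v} fun _ _ _ => True := by
  intro p a b F K k _ _ _ _ _ S _
  by_cases hp2 : p = 2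
  · exact h2 p a b F K k S hp2
  rcases cases_num S.prime S.ha S.eleven S.ne25 with h | h | h | h | h | h
  · exact absurd h hp2
  · exact hP p a b F K k S h
  · exact hS p a b F K k S h
  · exact h3 p a b F K k S h
  · exact h5 p a b F K k S h
  · exact hT p a b F K k S hp2 (hB p a b F K k S hp2 h)

end Cfsg.Agent.E7P
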